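import Mathlib.GroupTheory.Commutator.Basic
import Mathlib.GroupTheory.SpecificGroups.Cyclic
import Mathlib.GroupTheory.Index
import Mathlib.Algebra.Group.Subgroup.Pointwise
import Mathlib.Tactic

/-!
Two generators `c, v` with the relations of the involution centralizer `2^{2+4}:5` of `U₃(4)`.
-/

set_option autoImplicit false
open scoped commutatorElement Pointwise

namespace CfsgLib.UThreeFour

variable {X : Type*} [Group X]

def cv (c v : X) : X := c * v * c⁻¹

/-- The defining relations. -/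
structure Rel (c v : X) : Prop where
  five : c ^ 5 = 1
  ac : Commute c ⁅v, cv c v⁆
  av : Commute v ⁅v, cv c v⁆
  bc : Commute c ⁅v, cv c (cv c v)⁆
  bv : Commute v ⁅v, cv c (cv c v)⁆
  asq : ⁅v, cv c v⁆ * ⁅v, cv c v⁆ = 1
  bsq : ⁅v, cv c (cv c v)⁆ * ⁅v, cv c (cv c v)⁆ = 1
  sq : v * v = ⁅v, cv c v⁆ * ⁅v, cv c (cv c v)⁆
  four : cv c (cv c (cv c (cv c v))) =
    v * cv c v * cv c (cv c v) * cv c (cv c (cv c v))

theorem card_sup_zpowers_le [Finite X] (H : Subgroup X) (x : X) (n : ℕ) (hn : 0 < n)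
    (hx : x ∈ Subgroup.normalizer (H : Set X)) (hpow : x ^ n ∈ H) :
    Nat.card ↥(H ⊔ Subgroup.zpowers x) ≤ n * Nat.card H := by
  classical
  have hle : Subgroup.zpowers x ≤ Subgroup.normalizer (H : Set X) := by
    rwa [Subgroup.zpowers_le]
  have hset : ((H ⊔ Subgroup.zpowers x : Subgroup X) : Set X) = (Subgroup.zpowers x : Set X) * (H : Set X) := by
    rw [sup_comm]
    exact Subgroup.coe_mul_of_left_le_normalizer_right _ _ hle
  let f : Fin n × H → ↥(H ⊔ Subgroup.zpowers x) := fun p =>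
    ⟨x ^ (p.1 : ℕ) * p.2, mul_mem (pow_mem (Subgroup.mem_sup_right (Subgroup.mem_zpowers x)) _)
      (Subgroup.mem_sup_left p.2.2)⟩
  have hf : Function.Surjective f := by
    rintro ⟨y, hy⟩
    have hy' : y ∈ (Subgroup.zpowers x : Set X) * (H : Set X) := by rw [← hset]; exact hy
    obtain ⟨a, ha, h, hh, rfl⟩ := Set.mem_mul.1 hy'
    obtain ⟨k, rfl⟩ := (mem_powers_iff_mem_zpowers).2 ha
    refine ⟨⟨⟨k % n, Nat.mod_lt _ hn⟩, ⟨(x ^ n) ^ (k / n) * h, mul_mem (pow_mem hpow _) hh⟩⟩, Subtype.ext ?_⟩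
    show x ^ (k % n) * ((x ^ n) ^ (k / n) * h) = x ^ k * h
    rw [← mul_assoc, ← pow_mul, ← pow_add, Nat.mod_add_div]
  exact (Nat.card_le_card_of_surjective f hf).trans (le_of_eq (by rw [Nat.card_prod, Nat.card_fin]))

theorem mem_normalizer_of_comm {Z H : Subgroup X} [Finite X] (hZH : Z ≤ H) (x : X)
    (S : Set X) (hH : H = Subgroup.closure S) (hS : ∀ s ∈ S, ⁅x, s⁆ ∈ Z) :
    x ∈ Subgroup.normalizer (H : Set X) := by
  refine Subgroup.mem_normalizer_fintype fun h hh => ?_
  have : H ≤ H.comap (MulAut.conj x).toMonoidHom := by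
    conv_lhs => rw [hH]
    rw [Subgroup.closure_le]
    intro s hs
    show x * s * x⁻¹ ∈ H
    have h2 : x * s * x⁻¹ = ⁅x, s⁆ * s := by rw [commutatorElement_def]; group
    rw [h2]
    exact mul_mem (hZH (hS s hs)) (by rw [hH]; exact Subgroup.subset_closure hs)
  exact this hh

variable {c v : X}

/-- Conjugation by `c` has period five on `v`. -/
theorem Rel.five_cycle (h : Rel c v) : cv c (cv c (cv c (cv c (cv c v)))) = v := by
  have h5 : c * c * c * c * c = 1 := by simpa [pow_succ] using h.five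
  unfold cv
  calc c * (c * (c * (c * (c * v * c⁻¹) * c⁻¹) * c⁻¹) * c⁻¹) * c⁻¹
      = (c * c * c * c * c) * v * (c * c * c * c * c)⁻¹ := by group
    _ = v := by rw [h5]; group

theorem cv_comm_elt (c x y : X) : cv c ⁅x, y⁆ = ⁅cv c x, cv c y⁆ := by
  simp only [cv, commutatorElement_def]; group

/-- A group generated by two elements with these relations has order at most `320`;
moreover the quotient by the two basic commutators has order at most `80`. -/
theorem Rel.card_le [Finite X] (h : Rel c v) :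
    Nat.card ↥(Subgroup.closure ({c, v} : Set X)) ≤
      80 * Nat.card ↥(Subgroup.closure ({⁅v, cv c v⁆, ⁅v, cv c (cv c v)⁆} : Set X)) ∧
    Nat.card ↥(Subgroup.closure ({⁅v, cv c v⁆, ⁅v, cv c (cv c v)⁆} : Set X)) ≤ 4 := by
  set v1 := cv c v with hv1
  set v2 := cv c v1 with hv2
  set v3 := cv c v2 with hv3
  set a := ⁅v, v1⁆ with ha
  set b := ⁅v, v2⁆ with hb
  have cva : cv c a = a := by rw [cv, h.ac.eq, mul_inv_cancel_right]
  have cvb : cv c b = b := by rw [cv, h.bc.eq, mul_inv_cancel_right]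
  have c12 : ⁅v1, v2⁆ = a := (cv_comm_elt c v v1).symm.trans cva
  have c13 : ⁅v1, v3⁆ = b := (cv_comm_elt c v v2).symm.trans cvb
  have c23 : ⁅v2, v3⁆ = a :=
    (cv_comm_elt c v1 v2).symm.trans ((congrArg (cv c) c12).trans cva)
  have c24 : ⁅v2, cv c v3⁆ = b :=
    (cv_comm_elt c v1 v3).symm.trans ((congrArg (cv c) c13).trans cvb)
  have c30 : ⁅v3, v⁆ = b := by
    have h30 : ⁅v3, cv c (cv c v3)⁆ = b :=
      (cv_comm_elt c v2 (cv c v3)).symm.trans ((congrArg (cv c) c24).trans cvb)
    rwa [show cv c (cv c v3) = v from h.five_cycle] at h30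
  set Z := Subgroup.closure ({a, b} : Set X) with hZ
  have haZ : a ∈ Z := Subgroup.subset_closure (Or.inl rfl)
  have hbZ : b ∈ Z := Subgroup.subset_closure (Or.inr rfl)
  have hab : Commute b a := by
    show Commute ⁅v, v2⁆ a
    have h1 : Commute v1 a := by
      have := h.av; rw [← ha] at this
      show cv c v * a = a * cv c v
      conv_lhs => rw [← cva]
      conv_rhs => rw [← cva]
      simp only [cv]
      calc c * v * c⁻¹ * (c * a * c⁻¹) = c * (v * a) * c⁻¹ := by group
        _ = c * (a * v) * c⁻¹ := by rw [this.eq]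
        _ = _ := by group
    have hc : Commute c a := h.ac
    have h2 : Commute v2 a := ((hc.mul_left h1).mul_left hc.inv_left)
    have h0 : Commute v a := h.av
    exact ((h0.mul_left h2).mul_left h0.inv_left).mul_left h2.inv_left
  have hZ4 : Nat.card Z ≤ 4 := by
    have e : Z = Subgroup.zpowers a ⊔ Subgroup.zpowers b := by
      rw [hZ, Subgroup.zpowers_eq_closure, Subgroup.zpowers_eq_closure, ← Subgroup.closure_union,
        Set.insert_eq]
    have h1 : Nat.card ↥(Subgroup.zpowers a) ≤ 2 := by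
      rw [Nat.card_zpowers]
      exact Nat.le_of_dvd two_pos (orderOf_dvd_of_pow_eq_one (by rw [pow_two]; exact h.asq))
    have h2 := card_sup_zpowers_le (Subgroup.zpowers a) b 2 two_pos ?_ ?_
    · rw [e]; omega
    · refine mem_normalizer_of_comm (Z := ⊥) bot_le b {a} (Subgroup.zpowers_eq_closure a) ?_
      rintro s rfl
      exact Subgroup.mem_bot.2 (commutatorElement_eq_one_iff_mul_comm.2 hab.eq)
    · rw [pow_two]; rw [show b * b = 1 from h.bsq]; exact one_mem _
  refine ⟨?_, hZ4⟩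
  have hsqv : v * v = a * b := h.sq
  have sq_cv : ∀ x : X, x * x = a * b → cv c x * cv c x = a * b := by
    intro x hx
    calc cv c x * cv c x = cv c (x * x) := by simp [cv]
      _ = cv c a * cv c b := by rw [hx]; simp [cv]
      _ = a * b := by rw [cva, cvb]
  have s1 : v1 * v1 = a * b := sq_cv v hsqv
  have s2 : v2 * v2 = a * b := sq_cv v1 s1
  have s3 : v3 * v3 = a * b := sq_cv v2 s2
  have habZ : a * b ∈ Z := mul_mem haZ hbZ
  have comm_z : ∀ x : X, Commute x a → Commute x b → ∀ z ∈ ({a, b} : Set X), ⁅x, z⁆ ∈ Z := by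
    intro x h1 h2 z hz
    rcases hz with rfl | rfl
    · rw [commutatorElement_eq_one_iff_mul_comm.2 h1.eq]; exact one_mem _
    · rw [commutatorElement_eq_one_iff_mul_comm.2 h2.eq]; exact one_mem _
  have cvcomm : ∀ x y : X, Commute x y → Commute (cv c x) (cv c y) := fun x y hxy => by
    show cv c x * cv c y = cv c y * cv c x
    simp only [cv]
    calc c * x * c⁻¹ * (c * y * c⁻¹) = c * (x * y) * c⁻¹ := by group
      _ = c * (y * x) * c⁻¹ := by rw [hxy.eq]
      _ = _ := by group
  have z0 : ∀ z ∈ ({a, b} : Set X), ⁅v, z⁆ ∈ Z := comm_z v h.av h.bv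
  have a1 : Commute v1 a := cva ▸ cvcomm v a h.av
  have b1 : Commute v1 b := cvb ▸ cvcomm v b h.bv
  have a2 : Commute v2 a := cva ▸ cvcomm v1 a a1
  have b2 : Commute v2 b := cvb ▸ cvcomm v1 b b1
  have a3 : Commute v3 a := cva ▸ cvcomm v2 a a2
  have b3 : Commute v3 b := cvb ▸ cvcomm v2 b b2
  have sw : ∀ x y : X, ⁅x, y⁆ ∈ Z → ⁅y, x⁆ ∈ Z := fun x y hxy => by
    rw [← commutatorElement_inv x y]; exact inv_mem hxy
  set A0 := Subgroup.closure ({a, b, v} : Set X) with hA0
  set A1 := Subgroup.closure ({a, b, v, v1} : Set X) with hA1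
  set A2 := Subgroup.closure ({a, b, v, v1, v2} : Set X) with hA2
  set A3 := Subgroup.closure ({a, b, v, v1, v2, v3} : Set X) with hA3
  have step : ∀ (S : Set X) (x : X), Z ≤ Subgroup.closure S → (∀ s ∈ S, ⁅x, s⁆ ∈ Z) → x * x ∈ Z →
      ∀ T : Set X, T ⊆ S ∪ {x} → Nat.card ↥(Subgroup.closure T) ≤ 2 * Nat.card ↥(Subgroup.closure S) := by
    intro S x hZS hxs hxx T hT
    refine le_trans ?_ (card_sup_zpowers_le (Subgroup.closure S) x 2 two_pos
      (mem_normalizer_of_comm hZS x S rfl hxs) (by rw [pow_two]; exact hZS hxx))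
    refine Subgroup.card_le_of_le ((Subgroup.closure_le _).2 fun t ht => ?_)
    rcases hT ht with h1 | h1
    · exact Subgroup.mem_sup_left (Subgroup.subset_closure h1)
    · rw [Set.mem_singleton_iff.1 h1]; exact Subgroup.mem_sup_right (Subgroup.mem_zpowers x)
  have zle : ∀ S : Set X, a ∈ S → b ∈ S → Z ≤ Subgroup.closure S := fun S h1 h2 =>
    (Subgroup.closure_le _).2 (by rintro s (rfl | rfl) <;> exact Subgroup.subset_closure ‹_›)
  have k0 : Nat.card A0 ≤ 2 * Nat.card Z :=
    step {a, b} v le_rfl z0 (hsqv ▸ habZ) _ (by intro t; simp; tauto)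
  have k1 : Nat.card A1 ≤ 2 * Nat.card A0 := by
    refine step {a, b, v} v1 (zle _ (by simp) (by simp)) ?_ (s1 ▸ habZ) _ (by intro t; simp; tauto)
    rintro s (rfl | rfl | rfl)
    · exact comm_z v1 a1 b1 a (by simp)
    · exact comm_z v1 a1 b1 b (by simp)
    · exact sw _ _ haZ
  have k2 : Nat.card A2 ≤ 2 * Nat.card A1 := by
    refine step {a, b, v, v1} v2 (zle _ (by simp) (by simp)) ?_ (s2 ▸ habZ) _ (by intro t; simp; tauto)
    rintro s (rfl | rfl | rfl | rfl)
    · exact comm_z v2 a2 b2 a (by simp)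
    · exact comm_z v2 a2 b2 b (by simp)
    · exact sw _ _ hbZ
    · exact sw _ _ (c12 ▸ haZ)
  have k3 : Nat.card A3 ≤ 2 * Nat.card A2 := by
    refine step {a, b, v, v1, v2} v3 (zle _ (by simp) (by simp)) ?_ (s3 ▸ habZ) _ (by intro t; simp; tauto)
    rintro s (rfl | rfl | rfl | rfl | rfl)
    · exact comm_z v3 a3 b3 a (by simp)
    · exact comm_z v3 a3 b3 b (by simp)
    · rw [c30]; exact hbZ
    · exact sw _ _ (c13 ▸ hbZ)
    · exact sw _ _ (c23 ▸ haZ)
  have hcN : c ∈ Subgroup.normalizer (A3 : Set X) := by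
    refine Subgroup.mem_normalizer_fintype fun x hx => ?_
    have : A3 ≤ A3.comap (MulAut.conj c).toMonoidHom := by
      conv_lhs => rw [hA3]
      rw [Subgroup.closure_le]
      rintro s (rfl | rfl | rfl | rfl | rfl | rfl) <;> show cv c _ ∈ A3
      · rw [cva]; exact Subgroup.subset_closure (by simp)
      · rw [cvb]; exact Subgroup.subset_closure (by simp)
      · exact Subgroup.subset_closure (by simp [hv1])
      · exact Subgroup.subset_closure (by simp [hv2])
      · exact Subgroup.subset_closure (by simp [hv3])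
      · rw [show cv c v3 = v * v1 * v2 * v3 from h.four]
        exact mul_mem (mul_mem (mul_mem (Subgroup.subset_closure (by simp)) (Subgroup.subset_closure (by simp)))
          (Subgroup.subset_closure (by simp))) (Subgroup.subset_closure (by simp))
    exact this hx
  have k4 := card_sup_zpowers_le A3 c 5 (by norm_num) hcN (h.five ▸ one_mem _)
  have hle : Subgroup.closure ({c, v} : Set X) ≤ A3 ⊔ Subgroup.zpowers c := by
    rw [Subgroup.closure_le]
    rintro s (rfl | rfl)
    · exact Subgroup.mem_sup_right (Subgroup.mem_zpowers _)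
    · exact Subgroup.mem_sup_left (Subgroup.subset_closure (by simp))
  have := Subgroup.card_le_of_le hle
  omega

/-- Relations between generators transfer to pairs. -/
theorem Rel.prod {Y : Type*} [Group Y] {c' v' : Y} (h : Rel c v) (h' : Rel c' v') :
    Rel (c, c') (v, v') :=
  ⟨Prod.ext h.five h'.five, Prod.ext h.ac h'.ac, Prod.ext h.av h'.av, Prod.ext h.bc h'.bc,
    Prod.ext h.bv h'.bv, Prod.ext h.asq h'.asq, Prod.ext h.bsq h'.bsq, Prod.ext h.sq h'.sq,
    Prod.ext h.four h'.four⟩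

/-- A group of order `320` generated by `c, v` maps to every group containing such a pair. -/
theorem Rel.exists_hom [Finite X] {Y : Type*} [Group Y] [Finite Y] {c' v' : Y} (h : Rel c v)
    (h' : Rel c' v') (hX : Nat.card X = 320) (hgen : Subgroup.closure ({c, v} : Set X) = ⊤) :
    ∃ φ : X →* Y, φ c = c' ∧ φ v = v' := by
  set K := Subgroup.closure ({(c, c'), (v, v')} : Set (X × Y)) with hK
  let p : K →* X := (MonoidHom.fst X Y).comp K.subtype
  have hp : Function.Surjective p := by
    rw [← MonoidHom.range_eq_top, eq_top_iff, ← hgen, Subgroup.closure_le]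
    rintro s (rfl | rfl)
    · exact ⟨⟨_, Subgroup.subset_closure (Or.inl rfl)⟩, rfl⟩
    · exact ⟨⟨_, Subgroup.subset_closure (Or.inr rfl)⟩, rfl⟩
  obtain ⟨h1, h2⟩ := (h.prod h').card_le
  have hcard : Nat.card K ≤ 320 := by rw [hK]; omega
  have hb : Function.Bijective p :=
    (Nat.bijective_iff_surjective_and_card p).2
      ⟨hp, le_antisymm (hX ▸ hcard) (Nat.card_le_card_of_surjective p hp)⟩
  let e := MulEquiv.ofBijective p hb
  refine ⟨((MonoidHom.snd X Y).comp K.subtype).comp e.symm.toMonoidHom, ?_, ?_⟩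
  · have : e.symm c = ⟨(c, c'), Subgroup.subset_closure (Or.inl rfl)⟩ := e.symm_apply_eq.2 rfl
    simp [this]
  · have : e.symm v = ⟨(v, v'), Subgroup.subset_closure (Or.inr rfl)⟩ := e.symm_apply_eq.2 rfl
    simp [this]

end CfsgLib.UThreeFour
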