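import Cfsg.Agent.UThreeFour.Rel
import Mathlib.GroupTheory.Sylow
import Mathlib.GroupTheory.SpecificGroups.KleinFour
import Mathlib.GroupTheory.Perm.Cycle.Type
import Mathlib.GroupTheory.Nilpotent
import Mathlib.GroupTheory.Abelianization.Defs
import Mathlib.GroupTheory.Abelianization.Finite
import Mathlib.GroupTheory.GroupAction.ConjAct

/-!
Groups of order `320` with derived subgroup of order `64` whose centre is a Klein four-group.
-/

set_option autoImplicit false
open scoped commutatorElement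

namespace CfsgLib.UThreeFour

variable {X : Type*} [Group X]

theorem card_inter_centralizer_modEq [Finite X] (S : Subgroup X) {σ : X} (h5 : σ ^ 5 = 1)
    (hS : ∀ x ∈ S, σ * x * σ⁻¹ ∈ S) :
    Nat.card S % 5 = Nat.card ↥(S ⊓ Subgroup.centralizer {σ}) % 5 := by
  classical
  haveI : Fact (Nat.Prime 5) := ⟨by norm_num⟩
  haveI := Fintype.ofFinite S
  let f : Function.End S := fun x => ⟨σ * x * σ⁻¹, hS x x.2⟩
  have hit : ∀ (k : ℕ) (x : S), ((f ^ k) x : X) = σ ^ k * x * (σ ^ k)⁻¹ := by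
    intro k
    induction k with
    | zero => intro x; simp; rfl
    | succ k ih =>
      intro x
      rw [pow_succ']
      show σ * ((f ^ k) x : X) * σ⁻¹ = _
      rw [ih, pow_succ']
      group
  have hf : f ^ 5 ^ 1 = 1 := funext fun x => Subtype.ext (by rw [hit, pow_one, h5]; simp; rfl)
  have h := Equiv.Perm.card_fixedPoints_modEq hf
  have e : Function.fixedPoints f ≃ ↥(S ⊓ Subgroup.centralizer {σ}) :=
    { toFun := fun x => ⟨x.1.1, x.1.2, Subgroup.mem_centralizer_singleton_iff.2 (by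
        have hx : σ * (x.1 : X) * σ⁻¹ = x.1 := congrArg Subtype.val x.2
        conv_lhs => rw [← hx]
        group)⟩
      invFun := fun x => ⟨⟨x.1, x.2.1⟩, Subtype.ext (by
        show σ * (x.1 : X) * σ⁻¹ = x.1
        rw [show σ * (x.1 : X) = x.1 * σ from (Subgroup.mem_centralizer_singleton_iff.1 x.2.2).symm]
        group)⟩
      left_inv := fun x => rfl
      right_inv := fun x => rfl }
  rw [Nat.card_eq_fintype_card]
  refine h.trans ?_
  rw [← Nat.card_congr e, ← Nat.card_eq_fintype_card]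

theorem cases16 {n : ℕ} (h : n ∣ 16) (h1 : n % 5 = 1) : n = 1 ∨ n = 16 := by
  obtain ⟨k, hk, rfl⟩ := (Nat.dvd_prime_pow Nat.prime_two).1 (show n ∣ 2 ^ 4 from h)
  interval_cases k <;> simp_all

/-- A group of order `80` with derived subgroup of order `16`. -/
theorem eighty {Q : Type*} [Group Q] [Finite Q] (hQ : Nat.card Q = 80)
    (hD : Nat.card (commutator Q) = 16) {σ : Q} (hσ : σ ^ 5 = 1) (hσ1 : σ ≠ 1) :
    (∀ x ∈ commutator Q, ∀ y ∈ commutator Q, x * y = y * x) ∧ (∀ x ∈ commutator Q, x * x = 1) ∧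
    (∀ x ∈ commutator Q, σ * x = x * σ → x = 1) := by
  classical
  haveI : Fact (Nat.Prime 2) := ⟨Nat.prime_two⟩
  haveI : Fact (Nat.Prime 5) := ⟨by norm_num⟩
  set D := commutator Q with hDdef
  have hP : IsPGroup 2 D := IsPGroup.of_card (n := 4) (by rw [hD]; norm_num)
  haveI : Nontrivial D := Finite.one_lt_card_iff_nontrivial.1 (by omega)
  have hnorm : ∀ x ∈ D, σ * x * σ⁻¹ ∈ D := fun x hx =>
    (inferInstance : D.Normal).conj_mem x hx σ
  have ho : orderOf σ = 5 := orderOf_eq_prime hσ hσ1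
  have htop : D ⊔ Subgroup.zpowers σ = ⊤ := by
    apply Subgroup.eq_top_of_card_eq
    have h1 : 16 ∣ Nat.card ↥(D ⊔ Subgroup.zpowers σ) := hD ▸ Subgroup.card_dvd_of_le le_sup_left
    have h2 : 5 ∣ Nat.card ↥(D ⊔ Subgroup.zpowers σ) := by
      rw [← ho, ← Nat.card_zpowers]; exact Subgroup.card_dvd_of_le le_sup_right
    have h3 := Subgroup.card_subgroup_dvd_card (D ⊔ Subgroup.zpowers σ)
    rw [hQ] at h3 ⊢
    exact Nat.dvd_antisymm h3 (Nat.Coprime.mul_dvd_of_dvd_of_dvd (by norm_num : Nat.Coprime 16 5) h1 h2)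
  set W := D ⊓ Subgroup.centralizer {σ} with hWdef
  have hWm := card_inter_centralizer_modEq D hσ hnorm
  rw [hD, ← hWdef] at hWm
  have hW : W = ⊥ := by
    rcases cases16 (hD ▸ Subgroup.card_dvd_of_le (inf_le_left : W ≤ D)) hWm.symm with h | h
    · exact Subgroup.card_eq_one.1 h
    · exfalso
      have hWD : W = D := Subgroup.eq_of_le_of_card_ge inf_le_left (by rw [h, hD])
      have hc : ∀ x ∈ D, Commute σ x := fun x hx =>
        (Subgroup.mem_centralizer_singleton_iff.1 ((hWD ▸ hx : x ∈ W).2)).symm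
      have hle : D ≤ (commutator D).map D.subtype := by
        conv_lhs => rw [hDdef, commutator_def]
        rw [Subgroup.commutator_le]
        intro x _ y _
        obtain ⟨d, hd, s, hs, rfl⟩ := Subgroup.mem_sup_of_normal_left.1 (htop ▸ Subgroup.mem_top x)
        obtain ⟨e, he, r, hr, rfl⟩ := Subgroup.mem_sup_of_normal_left.1 (htop ▸ Subgroup.mem_top y)
        obtain ⟨i, rfl⟩ := Subgroup.mem_zpowers_iff.1 hs
        obtain ⟨j, rfl⟩ := Subgroup.mem_zpowers_iff.1 hr
        refine ⟨⁅(⟨d, hd⟩ : D), (⟨e, he⟩ : D)⁆, ?_, ?_⟩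
        · exact Subgroup.commutator_mem_commutator (Subgroup.mem_top _) (Subgroup.mem_top _)
        · rw [map_commutatorElement]
          show ⁅d, e⁆ = ⁅d * σ ^ i, e * σ ^ j⁆
          have h1 : Commute (σ ^ i) e := (hc e he).zpow_left i
          have h2 : Commute (σ ^ j) d := (hc d hd).zpow_left j
          have h3 : Commute (σ ^ i) (σ ^ j) := (Commute.refl σ).zpow_zpow i j
          simp only [commutatorElement_def, mul_inv_rev]
          calc d * e * d⁻¹ * e⁻¹ = d * e * (σ ^ i * σ ^ j) * ((σ ^ i)⁻¹ * d⁻¹ * (σ ^ j)⁻¹ * e⁻¹) := by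
                rw [show (σ ^ i)⁻¹ * d⁻¹ * (σ ^ j)⁻¹ = (σ ^ i)⁻¹ * (σ ^ j)⁻¹ * d⁻¹ by
                  rw [mul_assoc, ← (h2.inv_inv).eq, ← mul_assoc]]
                rw [← mul_inv_rev, h3.eq]
                group
            _ = d * (e * σ ^ i) * σ ^ j * ((σ ^ i)⁻¹ * d⁻¹ * (σ ^ j)⁻¹ * e⁻¹) := by group
            _ = _ := by rw [← h1.eq]; group
      haveI := hP.isNilpotent
      refine (IsSolvable.commutator_lt_top_of_nontrivial D).ne (eq_top_iff.2 fun x _ => ?_)
      obtain ⟨y, hy, hyx⟩ := hle x.2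
      rwa [← Subtype.ext hyx]
  have hfix : ∀ x ∈ D, σ * x = x * σ → x = 1 := fun x hx h =>
    Subgroup.mem_bot.1 (hW ▸ (⟨hx, Subgroup.mem_centralizer_singleton_iff.2 h.symm⟩ : x ∈ W))
  have key : ∀ S : Subgroup Q, S ≤ D → (∀ x ∈ S, σ * x * σ⁻¹ ∈ S) → Nat.card S ≠ 1 → S = D := by
    intro S hSD hSn hS1
    have h := card_inter_centralizer_modEq S hσ hSn
    rw [show S ⊓ Subgroup.centralizer {σ} = ⊥ from
      bot_unique fun x hx => hW ▸ (⟨hSD hx.1, hx.2⟩ : x ∈ W), Subgroup.card_bot] at h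
    rcases cases16 (hD ▸ Subgroup.card_dvd_of_le hSD) h with h1 | h1
    · exact absurd h1 hS1
    · exact Subgroup.eq_of_le_of_card_ge hSD (by rw [h1, hD])
  have hab : ∀ x ∈ D, ∀ y ∈ D, x * y = y * x := by
    haveI : ((Subgroup.center D).map D.subtype).Normal := inferInstance
    have hC := key ((Subgroup.center D).map D.subtype) (Subgroup.map_subtype_le _)
      (fun x hx => (inferInstance : ((Subgroup.center D).map D.subtype).Normal).conj_mem x hx σ) (by
        rw [Nat.card_congr ((Subgroup.center D).equivMapOfInjective D.subtype Subtype.val_injective).symm.toEquiv]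
        haveI := hP.center_nontrivial
        have := Finite.one_lt_card (α := Subgroup.center D)
        omega)
    intro x hx y hy
    rw [← hC] at hx
    obtain ⟨z, hz, rfl⟩ := hx
    exact (congrArg Subtype.val (Subgroup.mem_center_iff.1 hz ⟨y, hy⟩)).symm
  refine ⟨hab, ?_, hfix⟩
  let S : Subgroup Q :=
    { carrier := {x | x ∈ D ∧ x * x = 1}
      mul_mem' := fun {x y} hx hy => ⟨mul_mem hx.1 hy.1, by
        rw [show x * y * (x * y) = x * (y * x) * y by group, hab y hy.1 x hx.1,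
          show x * (x * y) * y = x * x * (y * y) by group, hx.2, hy.2, one_mul]⟩
      one_mem' := ⟨one_mem _, one_mul _⟩
      inv_mem' := fun {x} hx => ⟨inv_mem hx.1, by rw [← mul_inv_rev, hx.2, inv_one]⟩ }
  have hS : S = D := by
    refine key S (fun x hx => hx.1) (fun x hx => ⟨hnorm x hx.1, by
      rw [show σ * x * σ⁻¹ * (σ * x * σ⁻¹) = σ * (x * x) * σ⁻¹ by group, hx.2, mul_one, mul_inv_cancel]⟩) ?_
    intro h1
    obtain ⟨g, hg⟩ := exists_prime_orderOf_dvd_card' (G := D) 2 (by rw [hD]; norm_num)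
    have hgS : (g : Q) ∈ S := ⟨g.2, by
      rw [← Subgroup.coe_mul, ← pow_two, show g ^ 2 = 1 from hg ▸ pow_orderOf_eq_one g, OneMemClass.coe_one]⟩
    rw [Subgroup.card_eq_one.1 h1, Subgroup.mem_bot] at hgS
    rw [show g = 1 from Subtype.ext hgS, orderOf_one] at hg
    omega
  exact fun x hx => (hS ▸ hx : x ∈ S).2


/-- Bilinearity of commutators with central values. -/
theorem comm_mul_left {x y z : X} (h : Commute x ⁅y, z⁆) : ⁅x * y, z⁆ = ⁅y, z⁆ * ⁅x, z⁆ := by
  have e : ⁅x * y, z⁆ = (x * ⁅y, z⁆ * x⁻¹) * ⁅x, z⁆ := by simp only [commutatorElement_def]; group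
  rw [e, h.eq, mul_inv_cancel_right]

theorem comm_mul_right {x y z : X} (h : Commute y ⁅x, z⁆) : ⁅x, y * z⁆ = ⁅x, y⁆ * ⁅x, z⁆ := by
  have e : ⁅x, y * z⁆ = ⁅x, y⁆ * (y * ⁅x, z⁆ * y⁻¹) := by simp only [commutatorElement_def]; group
  rw [e, h.eq, mul_inv_cancel_right]

theorem sq_mul {x y : X} (h : Commute x ⁅y, x⁆) : x * y * (x * y) = ⁅y, x⁆ * (x * x * (y * y)) := by
  calc x * y * (x * y) = x * ⁅y, x⁆ * x * y * y := by simp only [commutatorElement_def]; group
    _ = ⁅y, x⁆ * x * x * y * y := by rw [h.eq]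
    _ = _ := by group

/-- The generators of a group of order `320` as in the statement. -/
theorem exists_rel {G : Type*} [Group G] [Finite G] (hG : Nat.card G = 320)
    (hD : Nat.card (commutator G) = 64) (hZ : IsKleinFour (Subgroup.center (commutator G))) :
    ∃ c v : G, Rel c v ∧ Subgroup.closure ({c, v} : Set G) = ⊤ ∧
      ∀ {H : Type*} [Group H] (φ : G →* H), φ c ≠ 1 → φ ⁅v, cv c v⁆ ≠ 1 →
        φ ⁅v, cv c (cv c v)⁆ ≠ 1 → φ ⁅v, cv c v⁆ ≠ φ ⁅v, cv c (cv c v)⁆ → Function.Injective φ := by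
  classical
  haveI : Fact (Nat.Prime 5) := ⟨by norm_num⟩
  set D := commutator G with hDdef
  set Zs : Subgroup G := (Subgroup.center D).map D.subtype with hZs
  haveI hZn : Zs.Normal := inferInstance
  have hZD : Zs ≤ D := Subgroup.map_subtype_le _
  have hZc : Nat.card Zs = 4 := by
    rw [← hZ.card_four]
    exact Nat.card_congr ((Subgroup.center D).equivMapOfInjective D.subtype Subtype.val_injective).symm.toEquiv
  have hZ2 : ∀ z ∈ Zs, z * z = 1 := by
    rintro _ ⟨z, hz, rfl⟩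
    have h : (⟨z, hz⟩ : Subgroup.center D) ^ 2 = 1 := by
      rw [← hZ.exponent_two]; exact Monoid.pow_exponent_eq_one _
    rw [pow_two] at h
    have h2 := congrArg (fun w : Subgroup.center D => ((w : D) : G)) h
    simpa using h2
  obtain ⟨c, hc⟩ := exists_prime_orderOf_dvd_card' (G := G) 5 (by rw [hG]; norm_num)
  have hc5 : c ^ 5 = 1 := hc ▸ pow_orderOf_eq_one c
  have htop : D ⊔ Subgroup.zpowers c = ⊤ := by
    apply Subgroup.eq_top_of_card_eq
    have h1 : 64 ∣ Nat.card ↥(D ⊔ Subgroup.zpowers c) := hD ▸ Subgroup.card_dvd_of_le le_sup_left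
    have h2 : 5 ∣ Nat.card ↥(D ⊔ Subgroup.zpowers c) := by
      rw [← hc, ← Nat.card_zpowers]; exact Subgroup.card_dvd_of_le le_sup_right
    have h3 := Subgroup.card_subgroup_dvd_card (D ⊔ Subgroup.zpowers c)
    rw [hG] at h3 ⊢
    exact Nat.dvd_antisymm h3 (Nat.Coprime.mul_dvd_of_dvd_of_dvd (by norm_num : Nat.Coprime 64 5) h1 h2)
  -- the centre of `D` is central
  have hcen : ∀ z ∈ Zs, ∀ g : G, Commute g z := by
    have h0 := card_inter_centralizer_modEq Zs hc5 (fun x hx => hZn.conj_mem x hx c)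
    have h4 : Zs ⊓ Subgroup.centralizer {c} = Zs := by
      refine Subgroup.eq_of_le_of_card_ge inf_le_left ?_
      have hd := Subgroup.card_dvd_of_le (inf_le_left : Zs ⊓ Subgroup.centralizer {c} ≤ Zs)
      have hle := Nat.le_of_dvd (by omega) hd
      rw [hZc] at h0 hle ⊢
      omega
    intro z hz g
    have hzc : Commute c z := (Subgroup.mem_centralizer_singleton_iff.1 ((show z ∈ Zs ⊓ Subgroup.centralizer {c} by rw [h4]; exact hz).2)).symm
    obtain ⟨d, hd, s, hs, rfl⟩ := Subgroup.mem_sup_of_normal_left.1 (htop ▸ Subgroup.mem_top g)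
    obtain ⟨i, rfl⟩ := Subgroup.mem_zpowers_iff.1 hs
    obtain ⟨w, hw, rfl⟩ := hz
    exact Commute.mul_left (congrArg Subtype.val (Subgroup.mem_center_iff.1 hw ⟨d, hd⟩)) (hzc.zpow_left i)
  -- the quotient
  let π := QuotientGroup.mk' Zs
  have hπs : Function.Surjective π := QuotientGroup.mk'_surjective _
  have hker : ∀ x, π x = 1 ↔ x ∈ Zs := fun x => QuotientGroup.eq_one_iff x
  have hQ : Nat.card (G ⧸ Zs) = 80 := by
    have h := Subgroup.card_eq_card_quotient_mul_card_subgroup Zs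
    rw [hG, hZc] at h; omega
  have hmap : commutator (G ⧸ Zs) = D.map π := by
    rw [hDdef, commutator_def, commutator_def, Subgroup.map_commutator, Subgroup.map_top_of_surjective π hπs]
  have hDq : Nat.card (commutator (G ⧸ Zs)) = 16 := by
    rw [hmap]
    have h := Subgroup.card_eq_card_quotient_mul_card_subgroup (π.comp D.subtype).ker
    rw [hD, Nat.card_congr (QuotientGroup.quotientKerEquivRange (π.comp D.subtype)).toEquiv,
      MonoidHom.range_comp, Subgroup.range_subtype] at h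
    have hk : Nat.card (π.comp D.subtype).ker = 4 := by
      rw [← hZc]
      exact Nat.card_congr
        { toFun := fun x => ⟨(x.1 : G), (hker _).1 x.2⟩
          invFun := fun z => ⟨⟨z.1, hZD z.2⟩, (hker _).2 z.2⟩
          left_inv := fun x => rfl
          right_inv := fun z => rfl }
    rw [hk] at h; omega
  have hcZ : c ∉ Zs := fun h => by
    have h2 := hZ2 c h
    rw [← pow_two] at h2
    have := orderOf_dvd_of_pow_eq_one h2
    rw [hc] at this; norm_num at this
  set σ := π c with hσ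
  have hσ5 : σ ^ 5 = 1 := by rw [hσ, ← map_pow, hc5, map_one]
  obtain ⟨qab, qsq, qfix⟩ := eighty hQ hDq hσ5 (fun h => hcZ ((hker c).1 h))
  have hπD : ∀ x ∈ D, π x ∈ commutator (G ⧸ Zs) := fun x hx => hmap ▸ Subgroup.mem_map_of_mem π hx
  have commZ : ∀ x ∈ D, ∀ y ∈ D, ⁅x, y⁆ ∈ Zs := fun x hx y hy => by
    rw [← hker, map_commutatorElement]
    exact commutatorElement_eq_one_iff_mul_comm.2 (qab _ (hπD x hx) _ (hπD y hy))
  have sqZ : ∀ x ∈ D, x * x ∈ Zs := fun x hx => by
    rw [← hker, map_mul]; exact qsq _ (hπD x hx)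
  have cvD : ∀ x ∈ D, cv c x ∈ D := fun x hx => (inferInstance : D.Normal).conj_mem x hx c
  have cvz : ∀ z ∈ Zs, cv c z = z := fun z hz => by rw [cv, (hcen z hz c).eq, mul_inv_cancel_right]
  have cvmul : ∀ x y, cv c (x * y) = cv c x * cv c y := fun x y => by simp [cv]
  have period : ∀ x, cv c (cv c (cv c (cv c (cv c x)))) = x := fun x => by
    have h5 : c * c * c * c * c = 1 := by simpa [pow_succ] using hc5
    unfold cv
    calc c * (c * (c * (c * (c * x * c⁻¹) * c⁻¹) * c⁻¹) * c⁻¹) * c⁻¹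
        = (c * c * c * c * c) * x * (c * c * c * c * c)⁻¹ := by group
      _ = x := by rw [h5]; group
  obtain ⟨w, hwD, hwZ⟩ : ∃ w ∈ D, w ∉ Zs := by
    by_contra hne
    push Not at hne
    have := Subgroup.card_le_of_le (hne : D ≤ Zs)
    omega
  -- normalise
  set P4 := w * cv c w * cv c (cv c w) * cv c (cv c (cv c w)) with hP4
  set w4 := cv c (cv c (cv c (cv c w))) with hw4
  have hw1 := cvD w hwD
  have hw2 := cvD _ hw1
  have hw3 := cvD _ hw2
  have hw4D : w4 ∈ D := cvD _ hw3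
  have hP4D : P4 ∈ D := mul_mem (mul_mem (mul_mem hwD hw1) hw2) hw3
  have hprod : π (P4 * w4) = 1 := by
    refine qfix _ (hπD _ (mul_mem hP4D hw4D)) ?_
    have e : cv c (P4 * w4) = cv c w * cv c (cv c w) * cv c (cv c (cv c w)) * w4 * w := by
      rw [cvmul, hP4, cvmul, cvmul, cvmul, hw4, period w]
    have e2 : π (cv c (P4 * w4)) = π (P4 * w4) := by
      rw [e, hP4]
      simp only [map_mul]
      rw [qab _ (mul_mem (mul_mem (mul_mem (hπD _ hw1) (hπD _ hw2)) (hπD _ hw3)) (hπD _ hw4D)) _ (hπD _ hwD)]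
      group
    rw [cv, map_mul, map_mul, map_inv, mul_inv_eq_iff_eq_mul] at e2
    exact e2
  have hz0 : w4⁻¹ * P4 ∈ Zs := by
    have h2 : P4 * w4 ∈ Zs := (hker _).1 hprod
    have h3 : w4 * w4 ∈ Zs := sqZ _ hw4D
    rw [show w4⁻¹ * P4 = (w4⁻¹ * (P4 * w4) * w4⁻¹⁻¹) * (w4 * w4)⁻¹ by group]
    exact mul_mem (hZn.conj_mem _ h2 _) (inv_mem h3)
  set z := w4⁻¹ * P4 with hz
  set v := w * z with hv
  set v1 := cv c v with hv1
  set v2 := cv c v1 with hv2
  set v3 := cv c v2 with hv3
  have hvD : v ∈ D := mul_mem hwD (hZD hz0)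
  have hvZ : v ∉ Zs := fun h => hwZ (by rwa [hv, Subgroup.mul_mem_cancel_right _ hz0] at h)
  have e1 : v1 = cv c w * z := by rw [hv1, hv, cvmul, cvz z hz0]
  have e2 : v2 = cv c (cv c w) * z := by rw [hv2, e1, cvmul, cvz z hz0]
  have e3 : v3 = cv c (cv c (cv c w)) * z := by rw [hv3, e2, cvmul, cvz z hz0]
  have hcz : ∀ g : G, z * g = g * z := fun g => ((hcen z hz0 g).eq).symm
  have four : cv c v3 = v * v1 * v2 * v3 := by
    rw [e3, cvmul, cvz z hz0, ← hw4, e1, e2, hv]
    calc w4 * z = P4 := by rw [hz]; group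
      _ = w * cv c w * (cv c (cv c w) * cv c (cv c (cv c w))) := by rw [hP4]; group
      _ = w * z * (cv c w * z) * ((cv c (cv c w) * z) * (cv c (cv c (cv c w)) * z)) := by
          have pair : ∀ g h : G, g * z * (h * z) = g * h := fun g h => by
            rw [show g * z * (h * z) = g * (z * h) * z by group, hcz h,
              show g * (h * z) * z = g * h * (z * z) by group, hZ2 z hz0, mul_one]
          rw [pair, pair]
      _ = w * z * (cv c w * z) * (cv c (cv c w) * z) * (cv c (cv c (cv c w)) * z) := by group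
  have d1 : v1 ∈ D := cvD _ hvD
  have d2 : v2 ∈ D := cvD _ d1
  have d3 : v3 ∈ D := cvD _ d2
  set a := ⁅v, v1⁆ with ha
  set b := ⁅v, v2⁆ with hb
  have haZ : a ∈ Zs := commZ _ hvD _ d1
  have hbZ : b ∈ Zs := commZ _ hvD _ d2
  have inv_z : ∀ x ∈ Zs, x⁻¹ = x := fun x hx => inv_eq_of_mul_eq_one_right (hZ2 x hx)
  have c21 : ⁅v2, v1⁆ = a := by
    rw [hv2, hv1, ← cv_comm_elt, ← hv1, ← commutatorElement_inv, ← ha, inv_z a haZ, cvz a haZ]
  have c32 : ⁅v3, v2⁆ = a := by
    conv_lhs => rw [hv3, hv2, ← cv_comm_elt, ← hv2]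
    rw [c21, cvz a haZ]
  have c31 : ⁅v3, v1⁆ = b := by
    conv_lhs => rw [hv3, hv1, ← cv_comm_elt]
    rw [← commutatorElement_inv, ← hb, inv_z b hbZ, cvz b hbZ]
  have c30 : ⁅v3, v⁆ = b := by
    have h13 : ⁅v1, v3⁆ = b := (cv_comm_elt c v v2).symm.trans (cvz b hbZ)
    have h24 : ⁅v2, cv c v3⁆ = b :=
      (cv_comm_elt c v1 v3).symm.trans ((congrArg (cv c) h13).trans (cvz b hbZ))
    have h35 : ⁅v3, cv c (cv c v3)⁆ = b :=
      (cv_comm_elt c v2 (cv c v3)).symm.trans ((congrArg (cv c) h24).trans (cvz b hbZ))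
    rwa [show cv c (cv c v3) = v from period v] at h35
  have hsq : v * v = a * b := by
    have g0 : v * v ∈ Zs := sqZ v hvD
    have s1 : v1 * v1 = v * v := by rw [hv1, ← cvmul, cvz _ g0]
    have s2 : v2 * v2 = v * v := by rw [hv2, ← cvmul, s1, cvz _ g0]
    have s3 : v3 * v3 = v * v := by rw [hv3, ← cvmul, s2, cvz _ g0]
    have s4 : cv c v3 * cv c v3 = v * v := by rw [← cvmul, s3, cvz _ g0]
    have t01 : v * v1 * (v * v1) = a := by
      rw [sq_mul (hcen _ (commZ _ d1 _ hvD) _), ← commutatorElement_inv, ← ha, inv_z a haZ, s1,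
        hZ2 _ g0, mul_one]
    have t23 : v2 * v3 * (v2 * v3) = a := by
      rw [sq_mul (hcen _ (commZ _ d3 _ d2) _), c32, s2, s3, hZ2 _ g0, mul_one]
    have k : ⁅v2 * v3, v * v1⁆ = a * b := by
      rw [comm_mul_left (hcen _ (commZ _ d3 _ (mul_mem hvD d1)) _),
        comm_mul_right (hcen _ (commZ _ d3 _ d1) _), comm_mul_right (hcen _ (commZ _ d2 _ d1) _),
        c30, c31, c21, ← commutatorElement_inv v v2, ← hb, inv_z b hbZ, hZ2 b hbZ, one_mul, (hcen a haZ b).eq]
    rw [← s4, four, show v * v1 * v2 * v3 = v * v1 * (v2 * v3) by group,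
      sq_mul (hcen _ (commZ _ (mul_mem d2 d3) _ (mul_mem hvD d1)) _), k, t01, t23, hZ2 a haZ, mul_one]
  have hrel : Rel c v :=
    ⟨hc5, hcen a haZ c, hcen a haZ v, hcen b hbZ c, hcen b hbZ v, hZ2 a haZ, hZ2 b hbZ, hsq, four⟩
  refine ⟨c, v, hrel, ?_, ?_⟩
  · -- generation
    set Y := Subgroup.closure ({c, v} : Set G) with hY
    have hcY : c ∈ Y := Subgroup.subset_closure (Or.inl rfl)
    have hvY : v ∈ Y := Subgroup.subset_closure (Or.inr rfl)
    set T := Y.map π with hT
    have hσT : σ ∈ T := Subgroup.mem_map_of_mem π hcY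
    have hQn : ∀ x ∈ T ⊓ commutator (G ⧸ Zs), σ * x * σ⁻¹ ∈ T ⊓ commutator (G ⧸ Zs) := fun x hx =>
      ⟨T.mul_mem (T.mul_mem hσT hx.1) (T.inv_mem hσT),
        (inferInstance : (commutator (G ⧸ Zs)).Normal).conj_mem x hx.2 σ⟩
    have hm := card_inter_centralizer_modEq _ hσ5 hQn
    rw [show (T ⊓ commutator (G ⧸ Zs)) ⊓ Subgroup.centralizer {σ} = ⊥ from bot_unique fun x hx =>
      Subgroup.mem_bot.2 (qfix x hx.1.2 (Subgroup.mem_centralizer_singleton_iff.1 hx.2).symm),
      Subgroup.card_bot] at hm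
    have hle : commutator (G ⧸ Zs) ≤ T := by
      rcases cases16 (hDq ▸ Subgroup.card_dvd_of_le inf_le_right) hm with h | h
      · have : π v ∈ T ⊓ commutator (G ⧸ Zs) := ⟨Subgroup.mem_map_of_mem π hvY, hπD v hvD⟩
        rw [Subgroup.card_eq_one.1 h, Subgroup.mem_bot, hker] at this
        exact absurd this hvZ
      · have heq : T ⊓ commutator (G ⧸ Zs) = commutator (G ⧸ Zs) :=
          Subgroup.eq_of_le_of_card_ge inf_le_right (by rw [h, hDq])
        rw [← heq]; exact inf_le_left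
    have hdec : ∀ g : G, ∃ y ∈ Y, ∃ u ∈ Zs, g = y * u := by
      intro g
      obtain ⟨d, hd, s, hs, rfl⟩ := Subgroup.mem_sup_of_normal_left.1 (htop ▸ Subgroup.mem_top g)
      have hsY : s ∈ Y := (Subgroup.zpowers_le.2 hcY) hs
      obtain ⟨y, hy, hyd⟩ := hle (hπD d hd)
      have hu : y⁻¹ * d ∈ Zs := (hker _).1 (by rw [map_mul, map_inv, hyd, inv_mul_cancel])
      exact ⟨y * s, mul_mem hy hsY, y⁻¹ * d, hu, by
        rw [mul_assoc, (hcen _ hu s).eq]; group⟩
    have hDY : D ≤ Y := by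
      rw [hDdef, commutator_def, Subgroup.commutator_le]
      intro g _ g' _
      obtain ⟨y, hy, u, hu, rfl⟩ := hdec g
      obtain ⟨y', hy', u', hu', rfl⟩ := hdec g'
      rw [comm_mul_left (z := y' * u') (by
          rw [commutatorElement_eq_one_iff_mul_comm.2 (hcen u hu _).symm.eq]; exact Commute.one_right _),
        comm_mul_right (x := y) (by
          rw [commutatorElement_eq_one_iff_mul_comm.2 (hcen u' hu' _).eq]; exact Commute.one_right _),
        commutatorElement_eq_one_iff_mul_comm.2 (hcen u hu _).symm.eq,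
        commutatorElement_eq_one_iff_mul_comm.2 (hcen u' hu' _).eq, one_mul, mul_one]
      exact mul_mem (mul_mem (mul_mem hy hy') (inv_mem hy)) (inv_mem hy')
    rw [eq_top_iff, ← htop]
    exact sup_le hDY (Subgroup.zpowers_le.2 hcY)
  · -- injectivity
    intro H _ φ hφc hφa hφb hφab
    change φ a ≠ 1 at hφa
    change φ b ≠ 1 at hφb
    change φ a ≠ φ b at hφab
    have hinjZ : ∀ x ∈ Zs, φ x = 1 → x = 1 := by
      intro x hx hx1
      by_contra hne
      let S : Finset G := {1, a, b, a * b, x}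
      have hab : φ (a * b) ≠ 1 := fun h => hφab (by
        rw [map_mul, mul_eq_one_iff_eq_inv, ← map_inv, inv_z b hbZ] at h; exact h)
      have hne1 : a ≠ 1 := fun h => hφa (by rw [h, map_one])
      have hne2 : b ≠ 1 := fun h => hφb (by rw [h, map_one])
      have hne3 : a * b ≠ 1 := fun h => hab (by rw [h, map_one])
      have hS : S.card = 5 := by
        have n1 : a ≠ b := fun h => hφab (by rw [h])
        have n2 : a ≠ a * b := fun h => hne2 (by simpa using h.symm)
        have n3 : b ≠ a * b := fun h => hne1 (by simpa using h.symm)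
        have x1 : a ≠ x := fun h => hφa (by rw [h, hx1])
        have x2 : b ≠ x := fun h => hφb (by rw [h, hx1])
        have x3 : a * b ≠ x := fun h => hab (by rw [h, hx1])
        simp [S, Ne.symm hne1, Ne.symm hne2, Ne.symm hne3, Ne.symm hne, n1, n2, n3, x1, x2, x3]
      have hsub : (S : Set G) ⊆ (Zs : Set G) := by
        intro g hg
        simp only [S, Finset.coe_insert, Finset.coe_singleton, Set.mem_insert_iff, Set.mem_singleton_iff] at hg
        rcases hg with rfl | rfl | rfl | rfl | rfl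
        exacts [one_mem _, haZ, hbZ, mul_mem haZ hbZ, hx]
      have h5 := Nat.card_mono (Set.toFinite _) hsub
      simp only [Nat.card_eq_finsetCard, SetLike.coe_sort_coe, hZc, hS] at h5
      omega
    have hinjD : ∀ x ∈ D, φ x = 1 → x = 1 := by
      intro x hx hx1
      obtain ⟨z', hz', rfl⟩ : ∃ z' ∈ Zs, z' = x := by
        refine ⟨x, ?_, rfl⟩
        refine ⟨⟨x, hx⟩, Subgroup.mem_center_iff.2 fun d => Subtype.ext ?_, rfl⟩
        show (d : G) * x = x * d
        refine (commutatorElement_eq_one_iff_mul_comm.1 (hinjZ _ (commZ x hx d d.2) ?_)).symm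
        rw [map_commutatorElement, hx1, commutatorElement_one_left]
      exact hinjZ _ hz' hx1
    rw [injective_iff_map_eq_one]
    intro k hk
    have kc : ∀ g, k * g = g * k := fun g => commutatorElement_eq_one_iff_mul_comm.1 (hinjD _
      (by rw [hDdef, commutator_def]; exact Subgroup.commutator_mem_commutator (Subgroup.mem_top _) (Subgroup.mem_top _))
      (by rw [map_commutatorElement, hk, commutatorElement_one_left]))
    obtain ⟨d, hd, s, hs, rfl⟩ := Subgroup.mem_sup_of_normal_left.1 (htop ▸ Subgroup.mem_top k)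
    obtain ⟨i, rfl⟩ := Subgroup.mem_zpowers_iff.1 hs
    have hdc : c * d = d * c := by
      have h := kc c
      rw [mul_assoc, ← zpow_add_one, add_comm, zpow_one_add, ← mul_assoc, ← mul_assoc] at h
      exact (mul_right_cancel h).symm
    have hdZ : d ∈ Zs := (hker d).1 (qfix _ (hπD d hd) (by rw [hσ, ← map_mul, hdc, map_mul]))
    have h1 : φ d * φ c ^ i = 1 := by rw [← map_zpow, ← map_mul]; exact hk
    have h2 : φ c ^ i = φ d := by
      rw [eq_inv_of_mul_eq_one_right h1, ← map_inv, inv_z d hdZ]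
    have hoc : orderOf (φ c) = 5 := orderOf_eq_prime (by rw [← map_pow, hc5, map_one]) hφc
    have h3 : φ c ^ (i * 2) = 1 := by
      rw [zpow_mul, zpow_two, h2, ← map_mul, hZ2 d hdZ, map_one]
    rw [← orderOf_dvd_iff_zpow_eq_one, hoc] at h3
    have h5 : ((5 : ℕ) : ℤ) ∣ i := by omega
    have hci : c ^ i = 1 := by rw [← orderOf_dvd_iff_zpow_eq_one, hc]; exact h5
    rw [hci, mul_one] at hk ⊢
    exact hinjD d hd hk

end CfsgLib.UThreeFour
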